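import Cfsg.Agent.H163.E6.Defs
import Cfsg.Agent.H83.Count
import Cfsg.Agent.H83.RedESix

/-!
# S5927: `Tor.two_two`, `Tor.two_four` (helper200)

Involutions (and elements of order 4) of the simply connected group `Zgrp F` of type `E₆` in characteristic 2: dimensions of
the fixed spaces on the 27-dimensional module.
-/

set_option autoImplicit false

namespace Cfsg.Agent.H200.E6Two

open Cfsg Cfsg.Lie Module
open Cfsg.Agent.ChevalleyStructure.E6Min.Tables Cfsg.Agent.ChevalleyStructure.E6Min.Basic
  Cfsg.Agent.ChevalleyStructure.E6Min.Adjoint Cfsg.Agent.ChevalleyStructure.E6Min.Checks2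
open Cfsg.Agent.ChevalleyStructure.Elts Cfsg.Agent.H83.ChevInv
open Cfsg.Agent.H952.F4 (ev es matRep)
open Cfsg.Agent.H163.E6 (V V_apply)
open scoped Matrix

theorem hp : Cfsg.Agent.Nodes.RGDChev.IsType chevE6 6 CoxeterMatrix.E₆ := by
  simp [Cfsg.Agent.Nodes.RGDChev.IsType, Cfsg.Agent.Nodes.RGDChev.typeList]

/-! ### the table -/

/-- the rows occurring in the row `j` of a product of root elements -/
def rws : List ℕ → ℕ → List ℕ
  | [], j => [j]
  | r :: R, j => rws R j ++ (if sgN r j = 0 then [] else rws R (srN r j))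

/-- the vectors which are constant on the classes of `kl` are fixed (modulo 2) -/
def chk (R kl : List ℕ) : Bool :=
  (allLt 27 fun j => allLt 15 fun κ =>
    ((((rws R j).map fun m => kl.getD m 15).count κ + (if kl.getD j 15 = κ then 1 else 0)) % 2 == 0)) &&
  (allLt 15 fun κ => !(allLt 27 fun j => !(kl.getD j 15 == κ))) && (R.all fun r => decide (r < 72))

def kl0 : List ℕ := [0, 1, 2, 3, 4, 5, 6, 7, 8, 9, 10, 11, 12, 13, 14]
def kl1 : List ℕ := [0, 1, 2, 3, 4, 5, 6, 7, 8, 9, 15, 10, 11, 15, 12, 13, 15, 14]
def kl2 : List ℕ := [0, 1, 2, 15, 3, 4, 15, 5, 6, 7, 15, 8, 9, 15, 15, 10, 15, 15, 15, 15, 15, 15, 11, 12, 13, 14]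
def kl3 : List ℕ := [0, 12, 1, 12, 2, 3, 15, 15, 4, 5, 13, 15, 6, 14, 15, 7, 15, 15, 15, 15, 15, 13, 14, 8, 9, 10, 11]

theorem chk0 : chk [] kl0 = true := by decide +kernel
theorem chk1 : chk [71] kl1 = true := by decide +kernel
theorem chk2 : chk [71, 60] kl2 = true := by decide +kernel
theorem chk3 : chk [71, 60, 44] kl3 = true := by decide +kernel

/-- the weights are distinguished by the roots -/
theorem sep_all : allLt 27 (fun i => allLt 27 fun j => (i == j) || !(allLt 72 fun r => decide (indN r i = indN r j))) =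
    true := by decide +kernel

theorem allLt_false {n : ℕ} {p : ℕ → Bool} (h : allLt n p = false) : ∃ k, k < n ∧ p k = false := by
  by_contra hcon
  push Not at hcon
  have : allLt n p = true := by
    have h1 : ∀ m, m ≤ n → allLt m p = true := by
      intro m
      induction m with
      | zero => intro _; rfl
      | succ m ih =>
        intro hm
        change (p m && allLt m p) = true
        rw [Bool.and_eq_true]
        exact ⟨by
          have := hcon m (by omega)
          simpa using this, ih (by omega)⟩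
    exact h1 n le_rfl
  rw [this] at h
  exact absurd h (by decide)

theorem sep {x y : I27} (h : x ≠ y) : ∃ r < 72, ind r x ≠ ind r y := by
  have h1 := allLt_spec (allLt_spec sep_all _ (code_lt x)) _ (code_lt y)
  rw [Bool.or_eq_true] at h1
  rcases h1 with h2 | h2
  · exact absurd (code_injective (by simpa using h2)) h
  · rw [Bool.not_eq_true'] at h2
    obtain ⟨r, hr, h3⟩ := allLt_false h2
    exact ⟨r, hr, by simpa [ind] using h3⟩

section

variable {F : Type*} [Field F] [CharP F 2]

theorem two0 : (2 : F) = 0 := CharTwo.two_eq_zero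

/-- product of root elements -/
def zP (F : Type*) [CommRing F] (R : List ℕ) : Matrix I27 I27 F := (R.map fun r => zM r 1).prod

theorem zP_mulVec {R : List ℕ} (hR : ∀ r ∈ R, r < 72) (v : I27 → F) (x : I27) :
    (zP F R *ᵥ v) x = ((rws R (code x)).map fun m => v (dec m)).sum := by
  induction R generalizing x with
  | nil =>
    change ((1 : Matrix I27 I27 F) *ᵥ v) x = _
    rw [Matrix.one_mulVec]
    simp [rws, dec_code]
  | cons r R ih =>
    have hr : r < 72 := hR r (by simp)
    have ih' := ih fun s hs => hR s (by simp [hs])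
    have h1 : zP F (r :: R) = zM r 1 * zP F R := by
      unfold zP
      rw [List.map_cons, List.prod_cons]
    have h2 : rws (r :: R) (code x) =
      rws R (code x) ++ (if sgN r (code x) = 0 then [] else rws R (srN r (code x))) := rfl
    rw [h1, ← Matrix.mulVec_mulVec, zM_mulVec, ih', one_mul, ih', code_sr hr, h2,
      List.map_append, List.sum_append]
    congr 1
    unfold sg
    split_ifs with h4
    · rw [h4]
      simp
    · have h3 : ((sgN r (code x) : ℤ) : F) = 1 := by
        unfold sgN at h4 ⊢
        split_ifs at h4 ⊢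
        · exact absurd rfl h4
        · exact Int.cast_one
        · rw [Int.cast_neg, Int.cast_one, CharTwo.neg_eq]
      rw [h3, one_mul]

omit [CharP F 2] in
theorem sum_map_count (L : List ℕ) (c : ℕ → F) (hc : ∀ κ, 15 ≤ κ → c κ = 0) :
    (L.map c).sum = ∑ κ ∈ Finset.range 15, (L.count κ : F) * c κ := by
  induction L with
  | nil => simp
  | cons a L ih =>
    rw [List.map_cons, List.sum_cons, ih]
    have h1 : c a = ∑ κ ∈ Finset.range 15, (if a = κ then (1 : F) else 0) * c κ := by
      by_cases ha : a < 15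
      · rw [Finset.sum_eq_single a]
        · rw [if_pos rfl, one_mul]
        · intro b _ hb
          rw [if_neg (Ne.symm hb), zero_mul]
        · intro h
          exact absurd (Finset.mem_range.2 ha) h
      · rw [hc a (by omega), Finset.sum_eq_zero]
        intro b hb
        rw [Finset.mem_range] at hb
        rw [if_neg (by omega), zero_mul]
    rw [h1, ← Finset.sum_add_distrib]
    apply Finset.sum_congr rfl
    intro κ _
    rw [List.count_cons, ← add_mul]
    congr 1
    by_cases h2 : a = κ
    · simp [h2, add_comm]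
    · simp [h2]

/-- the fixed vectors -/
def fv (kl : List ℕ) (c : ℕ → F) : I27 → F := fun x => c (kl.getD (code x) 15)

theorem fv_fixed {R kl : List ℕ} (h : chk R kl = true) (c : ℕ → F) (hc : ∀ κ, 15 ≤ κ → c κ = 0) :
    zP F R *ᵥ fv kl c = fv kl c := by
  unfold chk at h
  rw [Bool.and_eq_true, Bool.and_eq_true] at h
  obtain ⟨⟨h1, -⟩, h3⟩ := h
  have hR : ∀ r ∈ R, r < 72 := fun r hr => by
    rw [List.all_eq_true] at h3
    simpa using h3 r hr
  funext x
  rw [zP_mulVec hR]
  have h4 : ((rws R (code x)).map fun m => fv kl c (dec m)) = ((rws R (code x)).map fun m => kl.getD m 15).map c := by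
    rw [List.map_map]
    apply List.map_congr_left
    intro m hm
    have hm27 : m < 27 := by
      have : ∀ (R : List ℕ) (j : ℕ), (∀ r ∈ R, r < 72) → j < 27 → ∀ m ∈ rws R j, m < 27 := by
        intro R
        induction R with
        | nil =>
          intro j _ hj m hm
          simp only [rws, List.mem_singleton] at hm
          omega
        | cons r R ih =>
          intro j hR hj m hm
          unfold rws at hm
          rw [List.mem_append] at hm
          rcases hm with hm | hm
          · exact ih j (fun s hs => hR s (by simp [hs])) hj m hm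
          · split_ifs at hm with h5
            · simp at hm
            · exact ih _ (fun s hs => hR s (by simp [hs])) (srN_lt (hR r (by simp)) hj) m hm
      exact this R _ hR (code_lt x) m hm
    change c (kl.getD (code (dec m)) 15) = c (kl.getD m 15)
    rw [code_dec hm27]
  rw [h4, sum_map_count _ _ hc]
  have h5 : fv kl c x = ∑ κ ∈ Finset.range 15, (if kl.getD (code x) 15 = κ then (1 : F) else 0) * c κ := by
    have := sum_map_count [kl.getD (code x) 15] c hc
    simp only [List.map_cons, List.map_nil, List.sum_cons, List.sum_nil, add_zero] at this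
    change c _ = _
    rw [this]
    apply Finset.sum_congr rfl
    intro κ _
    congr 1
    rw [List.count_singleton]
    simp
  rw [h5]
  apply Finset.sum_congr rfl
  intro κ hκ
  congr 1
  have h6 := allLt_spec (allLt_spec h1 _ (code_lt x)) κ (Finset.mem_range.1 hκ)
  rw [beq_iff_eq] at h6
  obtain ⟨a, ha⟩ : ∃ a, a = (((rws R (code x)).map fun m => kl.getD m 15).count κ) := ⟨_, rfl⟩
  rw [← ha] at h6 ⊢
  have h7 : ((a + (if kl.getD (code x) 15 = κ then 1 else 0) : ℕ) : F) = 0 := by
    rw [CharP.cast_eq_zero_iff F 2]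
    exact Nat.dvd_of_mod_eq_zero h6
  split_ifs at h7 ⊢ with h8
  · push_cast at h7
    exact CharTwo.add_eq_zero.1 h7
  · simpa using h7

theorem ev_ge {R kl : List ℕ} (h : chk R kl = true) {g : ↥(Zgrp F)}
    (hg : ((g : GL I27 F) : Matrix I27 I27 F) = zP F R) : 15 ≤ ev (V F g) 1 := by
  have h' := h
  unfold chk at h'
  rw [Bool.and_eq_true, Bool.and_eq_true] at h'
  obtain ⟨⟨-, h2⟩, -⟩ := h'
  let ex : (Fin 15 → F) → ℕ → F := fun c κ => if hκ : κ < 15 then c ⟨κ, hκ⟩ else 0
  have hex : ∀ c κ, 15 ≤ κ → ex c κ = 0 := fun c κ hκ => dif_neg (by omega)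
  let θ : (Fin 15 → F) →ₗ[F] ↥(Module.End.eigenspace (V F g) (1 : F)) :=
    { toFun := fun c => ⟨fv kl (ex c), by
        rw [Module.End.mem_eigenspace_iff, one_smul, V_apply, hg]
        exact fv_fixed h _ (hex c)⟩
      map_add' := fun c c' => by
        apply Subtype.ext
        funext x
        change ex (c + c') _ = ex c _ + ex c' _
        simp only [ex]
        split_ifs
        · rfl
        · rw [add_zero]
      map_smul' := fun a c => by
        apply Subtype.ext
        funext x
        change ex (a • c) _ = a * ex c _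
        simp only [ex]
        split_ifs
        · rfl
        · rw [mul_zero] }
  have hθ : Function.Injective θ := by
    rw [injective_iff_map_eq_zero]
    intro c hc
    funext κ
    have h3 := allLt_spec h2 κ.val κ.isLt
    rw [Bool.not_eq_true'] at h3
    obtain ⟨j, hj, h4⟩ := allLt_false h3
    have h5 : kl.getD j 15 = κ.val := by simpa using h4
    have h6 := congrFun (congrArg Subtype.val hc) (dec j)
    change ex c (kl.getD (code (dec j)) 15) = 0 at h6
    rw [code_dec hj, h5] at h6
    simp only [ex] at h6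
    rw [dif_pos κ.isLt] at h6
    exact h6
  have h7 := LinearMap.finrank_le_finrank_of_injective hθ
  rw [Module.finrank_fintype_fun_eq_card, Fintype.card_fin] at h7
  exact h7

/-! ### the centre has no involution -/

theorem central_eq_one {c : ↥(Zgrp F)} (hc : ad F c = 1) (hcc : c * c = 1) : c = 1 := by
  have h1 := comm_B_of_ker hc
  have hN : ∀ r < 72, ((c : GL I27 F) : Matrix I27 I27 F) * Nm F r = Nm F r * ((c : GL I27 F) : Matrix I27 I27 F) :=
    fun r hr => h1 (Sum.inr ⟨r, hr⟩)
  obtain ⟨C, hC⟩ : ∃ C, C = ((c : GL I27 F) : Matrix I27 I27 F) := ⟨_, rfl⟩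
  rw [← hC] at hN
  have hoff : ∀ x y, x ≠ y → C x y = 0 := by
    intro x y hxy
    obtain ⟨r, hr, hne⟩ := sep hxy
    have h2 : C * (Nm F r * Nm F (71 - r)) = (Nm F r * Nm F (71 - r)) * C := by
      rw [← mul_assoc, hN r hr, mul_assoc, hN (71 - r) (by omega), ← mul_assoc]
    rw [Nm_mul_opp hr] at h2
    have h3 := congrFun (congrFun h2 x) y
    rw [Matrix.mul_diagonal, Matrix.diagonal_mul] at h3
    have h4 : C x y * (((ind r y : ℤ) : F) - ((ind r x : ℤ) : F)) = 0 := by
      rw [mul_sub, h3]
      ring
    rcases mul_eq_zero.1 h4 with h5 | h5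
    · exact h5
    · exfalso
      have ix : ind r x = 0 ∨ ind r x = 1 := by
        unfold ind indN
        split_ifs
        · exact Or.inl rfl
        · exact Or.inr rfl
      have iy : ind r y = 0 ∨ ind r y = 1 := by
        unfold ind indN
        split_ifs
        · exact Or.inl rfl
        · exact Or.inr rfl
      rcases ix with ix | ix <;> rcases iy with iy | iy <;> rw [ix, iy] at h5 hne
      · exact hne rfl
      · simp at h5
      · simp at h5
      · exact hne rfl
  have hCC : C * C = 1 := by
    rw [hC, ← Units.val_mul, ← Subgroup.coe_mul, hcc]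
    rfl
  have hdiag : ∀ x, C x x = 1 := by
    intro x
    have h2 := congrFun (congrFun hCC x) x
    rw [Matrix.mul_apply, Finset.sum_eq_single x, Matrix.one_apply_eq] at h2
    · have h3 : (C x x - 1) * (C x x - 1) = 0 := by
        linear_combination h2 + (1 - C x x) * (two0 (F := F))
      exact sub_eq_zero.1 (mul_self_eq_zero.1 h3)
    · intro y _ hy
      rw [hoff x y (Ne.symm hy), zero_mul]
    · intro h
      exact absurd (Finset.mem_univ _) h
  apply Subtype.ext
  apply Units.ext
  rw [← hC]
  ext x y
  by_cases hxy : x = y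
  · rw [hxy, hdiag]
    exact (Matrix.one_apply_eq y).symm
  · rw [hoff x y hxy]
    exact (Matrix.one_apply_ne hxy).symm

/-! ### lifting the representatives -/

/-- the product of root elements in the simply connected group -/
noncomputable def zG (F : Type*) [Field F] (R : List ℕ) : ↥(Zgrp F) :=
  (R.map fun r => (⟨zU r 1, zU_mem _ _⟩ : ↥(Zgrp F))).prod

omit [CharP F 2] in
theorem zG_val {R : List ℕ} (hR : ∀ r ∈ R, r < 72) : ((zG F R : GL I27 F) : Matrix I27 I27 F) = zP F R := by
  induction R with
  | nil => rfl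
  | cons r R ih =>
    have hr : r < 72 := hR r (by simp)
    have ih' := ih fun s hs => hR s (by simp [hs])
    have h1 : zP F (r :: R) = zM r 1 * zP F R := by
      unfold zP
      rw [List.map_cons, List.prod_cons]
    have h2 : zG F (r :: R) = ⟨zU r 1, zU_mem _ _⟩ * zG F R := by
      unfold zG
      rw [List.map_cons, List.prod_cons]
    rw [h1, h2, Subgroup.coe_mul, Units.val_mul, ih', coe_zU hr]

omit [CharP F 2] in
theorem ad_zU {r : ℕ} (hr : r < 72) (t : F) :
    ((ad F ⟨zU r t, zU_mem _ _⟩ : chevE6.group F) : GL chevE6.Idx F) = xG hp.inList r t := by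
  apply Units.ext
  refine P_unique (g := zU r t) (ad_P ⟨zU r t, zU_mem _ _⟩) ?_
  rw [coe_zU hr, coe_xG, x_of_lt (D := chevE6) hr]
  exact P_root ⟨r, hr⟩ t

omit [CharP F 2] in
theorem ad_zG {R : List ℕ} (hR : ∀ r ∈ R, r < 72) :
    ((ad F (zG F R) : chevE6.group F) : GL chevE6.Idx F) = PX hp.inList F R := by
  induction R with
  | nil =>
    have : zG F [] = 1 := rfl
    rw [this, map_one, PX_nil]
    rfl
  | cons r R ih =>
    have hr : r < 72 := hR r (by simp)
    have ih' := ih fun s hs => hR s (by simp [hs])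
    have h2 : zG F (r :: R) = ⟨zU r 1, zU_mem _ _⟩ * zG F R := by
      unfold zG
      rw [List.map_cons, List.prod_cons]
    rw [h2, map_mul, Subgroup.coe_mul, ih', ad_zU hr, PX_cons]

omit [CharP F 2] in
/-- the dimension of the eigenspace is a class function -/
theorem ev_conj (g x : ↥(Zgrp F)) (μ : F) : ev (V F (g * x * g⁻¹)) μ = ev (V F x) μ := by
  let e : (I27 → F) ≃ₗ[F] (I27 → F) :=
    LinearEquiv.ofLinearMap (V F g) (V F g⁻¹)
      (by rw [← Module.End.mul_eq_comp, ← map_mul, mul_inv_cancel, map_one]; rfl)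
      (by rw [← Module.End.mul_eq_comp, ← map_mul, inv_mul_cancel, map_one]; rfl)
  have h1 : (Module.End.eigenspace (V F x) μ).map (e : (I27 → F) →ₗ[F] (I27 → F)) =
      Module.End.eigenspace (V F (g * x * g⁻¹)) μ := by
    ext v
    rw [Submodule.mem_map, Module.End.mem_eigenspace_iff]
    constructor
    · rintro ⟨w, hw, rfl⟩
      rw [Module.End.mem_eigenspace_iff] at hw
      change V F (g * x * g⁻¹) (V F g w) = μ • V F g w
      rw [← Module.End.mul_apply, ← map_mul, inv_mul_cancel_right, map_mul, Module.End.mul_apply, hw, map_smul]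
    · intro hv
      refine ⟨V F g⁻¹ v, ?_, ?_⟩
      · rw [Module.End.mem_eigenspace_iff]
        have h2 : V F x (V F g⁻¹ v) = V F g⁻¹ (V F (g * x * g⁻¹) v) := by
          rw [← Module.End.mul_apply, ← Module.End.mul_apply, ← map_mul, ← map_mul]
          congr 2
          group
        rw [h2, hv, map_smul]
      · change V F g (V F g⁻¹ v) = v
        rw [← Module.End.mul_apply, ← map_mul, mul_inv_cancel, map_one]
        rfl
  unfold ev
  rw [← h1]
  exact (LinearEquiv.finrank_map_eq e _)

/-- **Tor.two_two** -/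
theorem two_two [Finite F] (x : ↥(Zgrp F)) (hx : x * x = 1) : 15 ≤ ev (V F x) 1 := by
  have ht : ((ad F x : chevE6.group F) : GL chevE6.Idx F) * (ad F x : chevE6.group F) = 1 := by
    rw [← Subgroup.coe_mul, ← map_mul, hx, map_one]
    rfl
  obtain ⟨R, hR, g, hg, hgR⟩ := Cfsg.Agent.H83.Count.exists_rep hp Cfsg.Agent.H83.RedESix.allchk_eq
    (ad F x).2 ht
  obtain ⟨kl, hkl⟩ : ∃ kl, chk R kl = true := by
    simp only [Cfsg.Agent.H83.RedESix.reps, List.mem_cons, List.not_mem_nil, or_false] at hR
    rcases hR with rfl | rfl | rfl | rfl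
    · exact ⟨_, chk0⟩
    · exact ⟨_, chk1⟩
    · exact ⟨_, chk2⟩
    · exact ⟨_, chk3⟩
  have hOL : OL chevE6 R := by
    simp only [Cfsg.Agent.H83.RedESix.reps, List.mem_cons, List.not_mem_nil, or_false] at hR
    rcases hR with rfl | rfl | rfl | rfl
    · exact ⟨by decide, by decide +kernel⟩
    · exact ⟨by decide, by decide +kernel⟩
    · exact ⟨by decide, by decide +kernel⟩
    · exact ⟨by decide, by decide +kernel⟩
  have hR72 : ∀ r ∈ R, r < 72 := hOL.lt
  obtain ⟨z, hz⟩ := ad_surjective (F := F) ⟨g, hg⟩
  -- `z x z⁻¹ = u c`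
  have h1 : ad F (z * x * z⁻¹) = ad F (zG F R) := by
    apply Subtype.ext
    rw [ad_zG hR72, ← hgR, map_mul, map_mul, map_inv, hz]
    rfl
  have hcker : ad F ((zG F R)⁻¹ * (z * x * z⁻¹)) = 1 := by
    rw [map_mul, map_inv, h1, inv_mul_cancel]
  have hcen : (zG F R)⁻¹ * (z * x * z⁻¹) ∈ Subgroup.center (Zgrp F) := by
    rw [← ker_ad]
    exact hcker
  have hyy : (z * x * z⁻¹) * (z * x * z⁻¹) = 1 := by
    have : (z * x * z⁻¹) * (z * x * z⁻¹) = z * (x * x) * z⁻¹ := by group
    rw [this, hx, mul_one, mul_inv_cancel]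
  -- `u` is an involution: the product of commuting involutions
  have huu : zG F R * zG F R = 1 := by
    have hsq : ∀ r, r < 72 → (⟨zU r (1 : F), zU_mem _ _⟩ : ↥(Zgrp F)) * ⟨zU r 1, zU_mem _ _⟩ = 1 := fun r hr => by
      apply Subtype.ext
      apply Units.ext
      change ((zU r (1 : F) : GL I27 F) : Matrix I27 I27 F) * ((zU r (1 : F) : GL I27 F) : Matrix I27 I27 F) = 1
      rw [coe_zU hr, zM_mul hr, CharTwo.add_self_eq_zero, zM_zero]
    have hcm : ∀ r s, r < 72 → s < 72 → s + r ≠ 71 → kN r s = 127 →
        (⟨zU r (1 : F), zU_mem _ _⟩ : ↥(Zgrp F)) * ⟨zU s 1, zU_mem _ _⟩ =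
          ⟨zU s 1, zU_mem _ _⟩ * ⟨zU r 1, zU_mem _ _⟩ := fun r s hr hs h hk => by
      apply Subtype.ext
      apply Units.ext
      change ((zU r (1 : F) : GL I27 F) : Matrix I27 I27 F) * ((zU s (1 : F) : GL I27 F) : Matrix I27 I27 F) =
        ((zU s (1 : F) : GL I27 F) : Matrix I27 I27 F) * ((zU r (1 : F) : GL I27 F) : Matrix I27 I27 F)
      rw [coe_zU hr, coe_zU hs, zM_def, zM_def, one_smul, one_smul]
      have e := Nm_comm_of_none (F := F) hr hs h hk
      simp only [add_mul, mul_add, one_mul, mul_one]
      rw [e]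
      abel
    simp only [Cfsg.Agent.H83.RedESix.reps, List.mem_cons, List.not_mem_nil, or_false] at hR
    rcases hR with rfl | rfl | rfl | rfl
    · simp [zG]
    · unfold zG
      simp only [List.map_cons, List.map_nil, List.prod_cons, List.prod_nil, mul_one]
      exact hsq 71 (by norm_num)
    · unfold zG
      simp only [List.map_cons, List.map_nil, List.prod_cons, List.prod_nil, mul_one]
      have c1 := hcm 71 60 (by norm_num) (by norm_num) (by norm_num) (by decide +kernel)
      have s1 := hsq 71 (by norm_num)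
      have s2 := hsq 60 (by norm_num)
      generalize (⟨zU 71 (1 : F), zU_mem _ _⟩ : ↥(Zgrp F)) = a at *
      generalize (⟨zU 60 (1 : F), zU_mem _ _⟩ : ↥(Zgrp F)) = b at *
      calc a * b * (a * b) = a * (b * a) * b := by group
        _ = a * (a * b) * b := by rw [c1]
        _ = (a * a) * (b * b) := by group
        _ = 1 := by rw [s1, s2, mul_one]
    · unfold zG
      simp only [List.map_cons, List.map_nil, List.prod_cons, List.prod_nil, mul_one]
      have c1 := hcm 71 60 (by norm_num) (by norm_num) (by norm_num) (by decide +kernel)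
      have c2 := hcm 71 44 (by norm_num) (by norm_num) (by norm_num) (by decide +kernel)
      have c3 := hcm 60 44 (by norm_num) (by norm_num) (by norm_num) (by decide +kernel)
      have s1 := hsq 71 (by norm_num)
      have s2 := hsq 60 (by norm_num)
      have s3 := hsq 44 (by norm_num)
      generalize (⟨zU 71 (1 : F), zU_mem _ _⟩ : ↥(Zgrp F)) = a at *
      generalize (⟨zU 60 (1 : F), zU_mem _ _⟩ : ↥(Zgrp F)) = b at *
      generalize (⟨zU 44 (1 : F), zU_mem _ _⟩ : ↥(Zgrp F)) = c at *
      calc a * (b * c) * (a * (b * c)) = a * b * (c * a) * (b * c) := by group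
        _ = a * b * (a * c) * (b * c) := by rw [c2]
        _ = a * (b * a) * (c * b) * c := by group
        _ = a * (a * b) * (b * c) * c := by rw [c1, c3]
        _ = (a * a) * (b * b) * (c * c) := by group
        _ = 1 := by rw [s1, s2, s3, mul_one, mul_one]
  obtain ⟨c, hc⟩ : ∃ c, c = (zG F R)⁻¹ * (z * x * z⁻¹) := ⟨_, rfl⟩
  rw [← hc] at hcker hcen
  have hy : z * x * z⁻¹ = zG F R * c := by rw [hc]; group
  have hcc : c * c = 1 := by
    have h2 : zG F R * c * (zG F R * c) = (zG F R * zG F R) * (c * c) := by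
      have h3 : c * zG F R = zG F R * c := (Subgroup.mem_center_iff.1 hcen (zG F R)).symm
      calc zG F R * c * (zG F R * c) = zG F R * (c * zG F R) * c := by group
        _ = zG F R * (zG F R * c) * c := by rw [h3]
        _ = _ := by group
    rw [hy, h2, huu, one_mul] at hyy
    exact hyy
  have hc1 := central_eq_one hcker hcc
  rw [hc1, mul_one] at hy
  rw [← ev_conj z x, hy]
  exact ev_ge hkl (zG_val hR72)

/-- **Tor.two_four** -/
theorem two_four [Finite F] (x : ↥(Zgrp F)) (hx : x ^ 4 = 1) : 8 ≤ ev (V F x) 1 := by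
  have h1 := two_two (x * x) (by rw [← hx, pow_succ, pow_succ, pow_succ, pow_one]; simp only [mul_assoc])
  unfold ev at h1 ⊢
  -- the map `v ↦ x v - v` from the fixed space of `x²` to the fixed space of `x`
  have add0 : ∀ v : I27 → F, v + v = 0 := fun v => by
    funext i
    exact CharTwo.add_self_eq_zero (v i)
  obtain ⟨T, hT⟩ : ∃ T : Module.End F (I27 → F), T = V F x := ⟨_, rfl⟩
  have hTT : V F (x * x) = T * T := by rw [map_mul, hT]
  rw [hTT] at h1
  rw [← hT]
  let N : ↥(Module.End.eigenspace (T * T) (1 : F)) →ₗ[F] ↥(Module.End.eigenspace T (1 : F)) :=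
    { toFun := fun v => ⟨T v.1 - v.1, by
        rw [Module.End.mem_eigenspace_iff, one_smul, map_sub]
        have h2 := v.2
        rw [Module.End.mem_eigenspace_iff, one_smul, Module.End.mul_apply] at h2
        rw [h2, sub_eq_sub_iff_add_eq_add, add0, add0]⟩
      map_add' := fun v w => by
        apply Subtype.ext
        change T (v.1 + w.1) - (v.1 + w.1) = T v.1 - v.1 + (T w.1 - w.1)
        rw [map_add]
        abel
      map_smul' := fun a v => by
        apply Subtype.ext
        change T (a • v.1) - a • v.1 = a • (T v.1 - v.1)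
        rw [map_smul, smul_sub] }
  have h2 := LinearMap.finrank_range_add_finrank_ker N
  have h3 : finrank F (LinearMap.range N) ≤ finrank F (Module.End.eigenspace T (1 : F)) :=
    Submodule.finrank_le _
  have h4 : finrank F (LinearMap.ker N) ≤ finrank F (Module.End.eigenspace T (1 : F)) := by
    have h5 : (LinearMap.ker N).map (Module.End.eigenspace (T * T) (1 : F)).subtype ≤
        Module.End.eigenspace T (1 : F) := by
      rintro _ ⟨v, hv, rfl⟩
      rw [Module.End.mem_eigenspace_iff, one_smul]
      have h5 := congrArg Subtype.val (LinearMap.mem_ker.1 hv)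
      exact sub_eq_zero.1 h5
    have h6 := Submodule.finrank_mono h5
    rw [Submodule.finrank_map_subtype_eq] at h6
    exact h6
  omega

end

end Cfsg.Agent.H200.E6Two

namespace Cfsg.Agent.H163.E6.Tor

open Cfsg Cfsg.Lie Module
open Cfsg.Agent.ChevalleyStructure.E6Min.Basic
open Cfsg.Agent.H952.F4 (ev)

universe u

/-- E2: involutions in characteristic 2 -/
theorem two_two {F : Type u} [Field F] [Finite F] [CharP F 2] (x : ↥(Zgrp F)) (hx : x * x = 1) :
    15 ≤ ev (V F x) 1 := Cfsg.Agent.H200.E6Two.two_two x hx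

/-- E2: elements of order 4 in characteristic 2 -/
theorem two_four {F : Type u} [Field F] [Finite F] [CharP F 2] (x : ↥(Zgrp F)) (hx : x ^ 4 = 1) :
    8 ≤ ev (V F x) 1 := Cfsg.Agent.H200.E6Two.two_four x hx

end Cfsg.Agent.H163.E6.Tor
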